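import Cfsg.Agent.MFive.Fus
import Cfsg.Agent.LThreeMB.Quo

/-!
# S4522: a chart `2^{1+24}.Co1` of an involution centralizer and an element `y` of odd order

`card_PP`: `|C_Q(y)| = 2 fr (pi y)`; `cent_PP`: `Z(C_Q(y)) = ⟨z⟩`; `conj_21`: elements `x`, `y` with `x ^ 21 = y ^ 21 = 1` and the same
image in `Co1` are conjugate; `odd_relIndex`: if `C_{Co1}(pi y)` has odd order and `C_Q(y)` has centre `⟨z⟩`, then `C_Q(y)` is a Sylow
2-subgroup of `C(y)`.
-/

set_option autoImplicit false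

open Subgroup

namespace Cfsg.Agent.H807.EB

open Cfsg.Agent.LThreeMB (PP mem_PP sm bL bL_apply fr conj_coset conj_Q)
open Cfsg.Agent.MonsterU
open Cfsg.Agent.MonsterU.Ch
open Cfsg.Agent.MonsterU.Lam2
open Cfsg.Spor (Co1)

section sylow

variable {G : Type*} [Group G] [Finite G]

/-- `T ≤ D` a 2-group, every element of `D` normalising `T` commutes with `z`, `T` has odd index in `C(z) ∩ D`:
`T` has odd index in `D`. -/
theorem odd_of_normalizer {D T : Subgroup G} (hTD : T ≤ D) (hT : IsPGroup 2 T) {z : G}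
    (hzc : ∀ g ∈ D, (∀ t ∈ T, g * t * g⁻¹ ∈ T) → g * z = z * g) (hTz : T ≤ centralizer {z})
    (hodd : Odd (T.relIndex (centralizer {z} ⊓ D))) : Odd (T.relIndex D) := by
  have : Fact (Nat.Prime 2) := ⟨Nat.prime_two⟩
  have hT' : IsPGroup 2 ↥(T.subgroupOf D) := hT.comap_subtype
  obtain ⟨P, hP⟩ := hT'.exists_le_sylow
  have hPP : IsPGroup 2 ↥((P : Subgroup D).map D.subtype) := P.isPGroup'.map D.subtype
  have hTP : T ≤ (P : Subgroup D).map D.subtype := fun x hx => ⟨⟨x, hTD hx⟩, hP hx, rfl⟩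
  have heq : (P : Subgroup D).map D.subtype = T := by
    by_contra hne
    set P' : Subgroup G := (P : Subgroup D).map D.subtype with hP'
    have := hPP.isNilpotent
    have hlt : T.subgroupOf P' < ⊤ := by
      rw [lt_top_iff_ne_top]
      intro h1
      exact hne (le_antisymm (subgroupOf_eq_top.1 h1) hTP)
    have h2 := Group.normalizerCondition_of_isNilpotent (G := P') (T.subgroupOf P') hlt
    obtain ⟨g, hg, hgT⟩ := SetLike.exists_of_lt h2
    have hnorm : ∀ t ∈ T, (g : G) * t * (g : G)⁻¹ ∈ T := fun t ht =>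
      (mem_normalizer_iff.1 hg ⟨t, hTP ht⟩).1 ht
    have hPD : P' ≤ D := by
      rintro _ ⟨x, -, rfl⟩
      exact x.2
    have hgz := hzc g (hPD g.2) hnorm
    -- the 2-group `P' ∩ C(z)` has order dividing `|T|`
    have h3 : IsPGroup 2 ↥(P' ⊓ centralizer {z} : Subgroup G) := hPP.to_le inf_le_left
    obtain ⟨a, ha⟩ := h3.exists_card_eq
    have h4 : Nat.card ↥(P' ⊓ centralizer {z} : Subgroup G) ∣ Nat.card ↥(centralizer {z} ⊓ D) :=
      card_dvd_of_le (le_inf inf_le_right (inf_le_left.trans hPD))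
    have h5 := relIndex_mul_relIndex ⊥ T (centralizer {z} ⊓ D) bot_le (le_inf hTz hTD)
    rw [relIndex_bot_left, relIndex_bot_left] at h5
    rw [← h5, ha] at h4
    have h6 : Nat.Coprime (2 ^ a) (T.relIndex (centralizer {z} ⊓ D)) :=
      Nat.Coprime.pow_left _ (Nat.coprime_two_left.2 hodd)
    have h7 := h6.dvd_of_dvd_mul_right h4
    rw [← ha] at h7
    have h8 : T = P' ⊓ centralizer {z} :=
      eq_of_le_of_card_ge (le_inf hTP hTz) (Nat.le_of_dvd Nat.card_pos h7)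
    apply hgT
    show (g : G) ∈ T
    rw [h8]
    exact ⟨g.2, mem_centralizer_singleton_iff.2 hgz⟩
  have h9 : T.subgroupOf D = P := by
    ext x
    rw [mem_subgroupOf, ← heq]
    constructor
    · rintro ⟨x', hx', h⟩
      rwa [← Subtype.ext h]
    · intro hx
      exact ⟨x, hx, rfl⟩
  have h10 : T.relIndex D = (P : Subgroup D).index := by rw [← h9]; rfl
  rw [h10, ← Nat.not_even_iff_odd, even_iff_two_dvd]
  exact P.not_dvd_index

end sylow

section chart

variable {G : Type*} [Group G] {Q : Subgroup G} {z : G} {eta : G → L2}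
  {pi : Subgroup.centralizer ({z} : Set G) →* Co1} {n : ℕ}

/-- `C_Q(x)` maps onto the fixed points of `pi x`. -/
theorem exists_fix (h : Chart Q z eta pi) (ho : Odd n) {x : Subgroup.centralizer ({z} : Set G)} (hx : x ^ n = 1)
    {v : L2} (hv : pi x • v = v) : ∃ w ∈ Q, w * (x : G) = x * w ∧ eta w = v := by
  obtain ⟨w, hw, rfl⟩ := h.eta_surj v
  exact ⟨w, hw, ((MFive.comm_iff_fix h ho hx hw).2 hv).symm, rfl⟩

/-- the centre of `C_Q(x)` -/
theorem cent_PP (h : Chart Q z eta pi) (ho : Odd n) {x : Subgroup.centralizer ({z} : Set G)} (hx : x ^ n = 1)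
    {p : G} (hp : p ∈ Q) (hpx : p * (x : G) = x * p) (hc : ∀ w ∈ Q, w * (x : G) = x * w → p * w = w * p) :
    p = 1 ∨ p = z := by
  rw [← h.eta_zero p hp]
  refine bf_nondeg fun v => ?_
  have hs : pi x ^ n = 1 := by rw [← map_pow, hx, map_one]
  have hfix : pi x • eta p = eta p := (MFive.comm_iff_fix h ho hx hp).1 hpx.symm
  have h1 := MFive.Lin.b_tr ho bL (sm (pi x)) (fun v w => Lam2.bf_smul1 (pi x) v w) (v := eta p) hfix v
  rw [bL_apply, bL_apply] at h1
  rw [← h1]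
  obtain ⟨w, hw, hwx, hwv⟩ := exists_fix h ho hx (v := MFive.Lin.tr n (sm (pi x)) v)
    (MFive.Lin.s_tr (sm (pi x)) (MFive.sm_iter_eq hs) v)
  rw [← hwv]
  exact (h.comm_iff hp hw).1 (hc w hw hwx)

/-- the order of `C_Q(x)` -/
theorem card_PP (h : Chart Q z eta pi) (ho : Odd n) {x : Subgroup.centralizer ({z} : Set G)} (hx : x ^ n = 1) :
    Nat.card ↥(PP Q (x : G)) = fr (pi x) * 2 := by
  have h1 := MFive.card_pre h ho hx ⊤
  have h2 : Nat.card {v : L2 // v ∈ (⊤ : AddSubgroup L2) ∧ pi x • v = v} = fr (pi x) :=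
    Nat.card_congr (Equiv.subtypeEquivRight fun v => by simp)
  rw [h2] at h1
  rw [← h1]
  refine Nat.card_congr (Equiv.subtypeEquivRight fun q => ?_)
  rw [mem_PP]
  constructor
  · rintro ⟨h3, h4⟩
    exact ⟨⟨h3, AddSubgroup.mem_top _⟩, h4.symm⟩
  · rintro ⟨⟨h3, -⟩, h4⟩
    exact ⟨h3, h4.symm⟩

/-- the index of `C_Q(x)` in `C(z) ∩ C(x)` -/
theorem relIndex_dvd (h : Chart Q z eta pi) [Finite Co1] (x : Subgroup.centralizer ({z} : Set G)) :
    (PP Q (x : G)).relIndex (centralizer {z} ⊓ centralizer {(x : G)}) ∣ Nat.card (centralizer ({pi x} : Set Co1)) := by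
  let f : ↥(centralizer ({z} : Set G) ⊓ centralizer {(x : G)}) →* centralizer ({pi x} : Set Co1) :=
    { toFun := fun g => ⟨pi ⟨g, g.2.1⟩, by
        rw [mem_centralizer_singleton_iff, ← map_mul, ← map_mul]
        exact congrArg pi (Subtype.ext (mem_centralizer_singleton_iff.1 g.2.2))⟩
      map_one' := Subtype.ext (map_one pi)
      map_mul' := fun a b => Subtype.ext (map_mul pi ⟨a, a.2.1⟩ ⟨b, b.2.1⟩) }
  have hk : f.ker = (PP Q (x : G)).subgroupOf (centralizer {z} ⊓ centralizer {(x : G)}) := by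
    ext g
    rw [MonoidHom.mem_ker, mem_subgroupOf, mem_PP]
    have h1 : f g = 1 ↔ (g : G) ∈ Q := by
      rw [← h.pi_eq_one ⟨g, g.2.1⟩, ← Subtype.coe_inj]
      rfl
    rw [h1]
    exact ⟨fun h2 => ⟨h2, mem_centralizer_singleton_iff.1 g.2.2⟩, fun h2 => h2.1⟩
  have h2 : (PP Q (x : G)).relIndex (centralizer {z} ⊓ centralizer {(x : G)}) = Nat.card f.range := by
    rw [← index_ker, hk]
    rfl
  rw [h2]
  exact card_subgroup_dvd_card f.range

/-- **`C_Q(x)` is a Sylow 2-subgroup of `C(x)`.** -/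
theorem odd_relIndex [Finite G] [Finite Co1] (h : Chart Q z eta pi) (ho : Odd n)
    {x : Subgroup.centralizer ({z} : Set G)} (hx : x ^ n = 1)
    (hodd : Odd (Nat.card (centralizer ({pi x} : Set Co1)))) : Odd ((PP Q (x : G)).relIndex (centralizer {(x : G)})) := by
  have hPQ : PP Q (x : G) ≤ Q := inf_le_left
  refine odd_of_normalizer (z := z) inf_le_right ?_ ?_ ?_ ?_
  · intro q
    refine ⟨2, Subtype.ext ?_⟩
    exact MFive.pow_four h (hPQ q.2)
  · intro g hg hn
    have hzP : z ∈ PP Q (x : G) := mem_PP.2 ⟨h.large.z_mem, (mem_centralizer_singleton_iff.1 x.2).symm⟩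
    have h1 := mem_PP.1 (hn z hzP)
    have h2 : g * z * g⁻¹ = 1 ∨ g * z * g⁻¹ = z := by
      refine cent_PP h ho hx h1.1 h1.2 fun w hw hwx => ?_
      -- `w = g w' g⁻¹` with `w' ∈ C_Q(x)`
      have hsurj : ∃ w' ∈ PP Q (x : G), g * w' * g⁻¹ = w := by
        have hfin : Finite ↥(PP Q (x : G)) := inferInstance
        have hinj : Function.Injective (fun w' : ↥(PP Q (x : G)) => (⟨g * w' * g⁻¹, hn w' w'.2⟩ : ↥(PP Q (x : G)))) := by
          intro a b hab
          have h3 : g * (a : G) * g⁻¹ = g * b * g⁻¹ := congrArg Subtype.val hab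
          exact Subtype.ext (mul_left_cancel (mul_right_cancel h3))
        obtain ⟨w', hw'⟩ := Finite.surjective_of_injective hinj ⟨w, mem_PP.2 ⟨hw, hwx⟩⟩
        exact ⟨w', w'.2, congrArg Subtype.val hw'⟩
      obtain ⟨w', hw', rfl⟩ := hsurj
      have h4 : w' * z = z * w' := h.large.comm_z w' (hPQ hw')
      calc g * z * g⁻¹ * (g * w' * g⁻¹) = g * (z * w') * g⁻¹ := by group
        _ = g * (w' * z) * g⁻¹ := by rw [h4]
        _ = g * w' * g⁻¹ * (g * z * g⁻¹) := by group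
    rcases h2 with h2 | h2
    · exfalso
      apply h.large.z_ne
      calc z = g⁻¹ * (g * z * g⁻¹) * g := by group
        _ = 1 := by rw [h2]; group
    · exact mul_inv_eq_iff_eq_mul.1 h2
  · intro q hq
    exact mem_centralizer_singleton_iff.2 (h.large.comm_z q (hPQ hq))
  · exact Odd.of_dvd_nat hodd (relIndex_dvd h x)

/-- elements `x`, `y` of `C(z)` with `x ^ 21 = y ^ 21 = 1` and the same image in `Co1` are conjugate under `Q` -/
theorem conj_21 (h : Chart Q z eta pi) {x y : Subgroup.centralizer ({z} : Set G)} (hx : x ^ 21 = 1)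
    (hy : y ^ 21 = 1) (hxy : pi x = pi y) : ∃ q ∈ Q, q * (x : G) * q⁻¹ = y := by
  have := h.fin
  have hx' : (x : G) ^ 21 = 1 := MFive.coe_pow hx
  have hy' : (y : G) ^ 21 = 1 := MFive.coe_pow hy
  -- the elements of order 3
  obtain ⟨q, hq, h1⟩ := MFive.exists_conj_of_pi_eq h (p := 3) Nat.prime_three (by decide) (x := x ^ 7) (y := y ^ 7)
    (by rw [← pow_mul, hx]) (by rw [← pow_mul, hy]) (by rw [map_pow, map_pow, hxy])
  rw [SubmonoidClass.coe_pow, SubmonoidClass.coe_pow, ← conj_pow] at h1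
  set x1 : G := q * (x : G) * q⁻¹ with hx1
  have hx121 : x1 ^ 21 = 1 := by rw [hx1, conj_pow, hx', mul_one, mul_inv_cancel]
  have hx1z : x1 * z = z * x1 := by
    have h2 : q * z = z * q := h.large.comm_z q hq
    have h3 : (x : G) * z = z * x := mem_centralizer_singleton_iff.1 x.2
    have c1 : Commute q z := h2
    have c2 : Commute (x : G) z := h3
    exact ((c1.mul_left c2).mul_left c1.inv_left).eq
  -- the elements of order 7
  have hf7 : Fact (Nat.Prime 7) := ⟨by norm_num⟩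
  have hQn : ∀ c : G, c * z = z * c → ∀ w ∈ Q, c * w * c⁻¹ ∈ Q := fun c hc w hw => h.large.conj_mem c hc w hw
  have hyz : (y : G) * z = z * y := mem_centralizer_singleton_iff.1 y.2
  -- `y x1⁻¹ ∈ Q`
  have hyx1 : (y : G) * x1⁻¹ ∈ Q := by
    have h2 : (x : G)⁻¹ * y ∈ Q := h.pi_eq.1 hxy
    have h3 : (y : G) * (x : G)⁻¹ ∈ Q := by
      have h4 := hQn x (mem_centralizer_singleton_iff.1 x.2) _ h2
      have h5 : (x : G) * ((x : G)⁻¹ * y) * (x : G)⁻¹ = y * (x : G)⁻¹ := by group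
      rwa [h5] at h4
    have h6 : (y : G) * x1⁻¹ = (y * (x : G)⁻¹) * ((x : G) * q * (x : G)⁻¹) * q⁻¹ := by rw [hx1]; group
    rw [h6]
    exact mul_mem (mul_mem h3 (hQn x (mem_centralizer_singleton_iff.1 x.2) _ hq)) (inv_mem hq)
  have hpow : ∀ k : ℕ, (y : G) ^ k * (x1 ^ k)⁻¹ ∈ Q := by
    intro k
    induction k with
    | zero => simp [one_mem]
    | succ k ih =>
      have h2 : (y : G) ^ (k + 1) * (x1 ^ (k + 1))⁻¹ = (y : G) * ((y : G) ^ k * (x1 ^ k)⁻¹) * (y : G)⁻¹ * (y * x1⁻¹) := by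
        rw [pow_succ' (y : G), pow_succ' x1]
        have h3 : (x1 * x1 ^ k)⁻¹ = (x1 ^ k)⁻¹ * x1⁻¹ := mul_inv_rev _ _
        rw [h3]
        group
      rw [h2]
      exact mul_mem (hQn y hyz _ ih) hyx1
  let N : Subgroup G := Q ⊓ centralizer {(y : G) ^ 7}
  have hNf : Finite ↥N := Finite.of_injective _ (inclusion_injective (inf_le_left : N ≤ Q))
  have hN7 : ¬ 7 ∣ Nat.card ↥N := fun h2 =>
    MFive.not_dvd h (p := 7) (by norm_num) (by decide) (h2.trans (card_dvd_of_le inf_le_left))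
  have c1 : Commute (x1 ^ 3) ((y : G) ^ 7) := by
    rw [← h1]
    exact (Commute.refl x1).pow_pow 3 7
  have c2 : Commute ((y : G) ^ 3) ((y : G) ^ 7) := (Commute.refl (y : G)).pow_pow 3 7
  obtain ⟨m, hm, h2⟩ := conj_coset (p := 7) N hN7 (x := x1 ^ 3) (y := (y : G) ^ 3) (by rw [← pow_mul, hx121])
    (by rw [← pow_mul, hy']) (fun w hw => by
      refine ⟨hQn (x1 ^ 3) ((show Commute x1 z from hx1z).pow_left 3).eq w hw.1, mem_centralizer_singleton_iff.2 ?_⟩
      have c3 : Commute w ((y : G) ^ 7) := mem_centralizer_singleton_iff.1 hw.2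
      exact ((c1.mul_left c3).mul_left c1.inv_left).eq) ⟨hpow 3, mem_centralizer_singleton_iff.2 (c2.mul_left c1.inv_left).eq⟩
  refine ⟨m * q, mul_mem hm.1 hq, ?_⟩
  have c4 : Commute m ((y : G) ^ 7) := mem_centralizer_singleton_iff.1 hm.2
  have h3 : m * q * (x : G) * (m * q)⁻¹ = m * x1 * m⁻¹ := by rw [hx1]; group
  rw [h3]
  have h4 : (m * x1 * m⁻¹) ^ 7 = (y : G) ^ 7 := by rw [conj_pow, h1, c4.eq, mul_inv_cancel_right]
  have h5 : (m * x1 * m⁻¹) ^ 3 = (y : G) ^ 3 := by rw [conj_pow, h2]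
  calc m * x1 * m⁻¹ = (m * x1 * m⁻¹) ^ 7 * (((m * x1 * m⁻¹) ^ 3) ^ 2)⁻¹ := by group
    _ = (y : G) ^ 7 * (((y : G) ^ 3) ^ 2)⁻¹ := by rw [h4, h5]
    _ = y := by group

end chart

end Cfsg.Agent.H807.EB
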