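import Cfsg.Agent.H225.AxB
import Cfsg.Agent.H864.ExtraSing

/-!
# S4522: centralizers of 2-elements in 2-constrained groups

`exists_constr`: `E` a 2-group, normalised by `C`, `C_C(E) ≤ E`, `x` a 2-element with `C(x) ≤ C`: then `C(x)` has a normal 2-subgroup
containing its centralizer in `C(x)`.
-/

set_option autoImplicit false

open Subgroup

namespace Cfsg.Agent.H807.EB

open Cfsg.Agent.H864

theorem exists_constr {H : Type*} [Group H] [Finite H] {p : ℕ} [Fact p.Prime] {C E : Subgroup H} (hE : IsPGroup p E)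
    (hn : ∀ c ∈ C, ∀ e ∈ E, c * e * c⁻¹ ∈ E) (hself : ∀ c ∈ C, (∀ e ∈ E, c * e = e * c) → c ∈ E) {x : H}
    (hx : ∃ j : ℕ, orderOf x = p ^ j) (hxC : centralizer ({x} : Set H) ≤ C) :
    ∃ F : Subgroup ↥(centralizer ({x} : Set H)), F.Normal ∧ IsPGroup p F ∧
      centralizer (F : Set ↥(centralizer ({x} : Set H))) ≤ F := by
  have hCE : C ≤ normalizer (E : Set H) := by
    intro c hc
    rw [mem_normalizer_iff]
    intro e
    refine ⟨hn c hc e, fun h => ?_⟩
    have h1 := hn c⁻¹ (inv_mem hc) _ h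
    have h2 : c⁻¹ * (c * e * c⁻¹) * c⁻¹⁻¹ = e := by group
    rwa [h2] at h1
  have hF2 := pCore_isPGroup' p ↥(centralizer ({x} : Set H))
  have hFn := pCore_normal' p ↥(centralizer ({x} : Set H))
  set F := Cfsg.pCore p ↥(centralizer ({x} : Set H)) with hFdef
  refine ⟨F, hFn, hF2, ?_⟩
  have hxx : x ∈ centralizer ({x} : Set H) := mem_centralizer_singleton_iff.2 rfl
  -- `C_E(x) ≤ F`
  have hEF : E.subgroupOf (centralizer ({x} : Set H)) ≤ F := by
    refine le_pCore' ⟨fun e he g => ?_⟩ hE.comap_subtype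
    exact hn g (hxC g.2) e he
  -- elements of order prime to `p` of the centralizer of `F` are trivial
  have key : ∀ k ∈ centralizer (F : Set ↥(centralizer ({x} : Set H))), Nat.Coprime (orderOf k) p → k = 1 := by
    intro k hk hkp
    have hkC : (k : H) ∈ C := hxC k.2
    have hxk : (k : H) * x = x * k := mem_centralizer_singleton_iff.1 k.2
    have h1 : (k : H) ∈ centralizer (E : Set H) := by
      refine H225.AxB.axb (p := p) (V := E) (D := zpowers x) hE (zpowers_le.2 (hCE (hxC hxx))) ?_ (hCE hkC)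
        (by rwa [orderOf_coe]) ?_ ?_
      · rintro _ ⟨i, rfl⟩
        obtain ⟨j, hj⟩ := hx
        refine ⟨j, ?_⟩
        have h2 : (x ^ i) ^ p ^ j = 1 := by
          rw [← zpow_natCast, ← zpow_mul, mul_comm, zpow_mul, zpow_natCast, ← hj, pow_orderOf_eq_one, one_zpow]
        rw [show ((fun i : ℤ => x ^ i) i) ^ p ^ j = 1 from h2]
        exact one_mem _
      · rintro _ ⟨i, rfl⟩
        have h2 : Commute (x ^ i) (k : H) := (show Commute x (k : H) from hxk.symm).zpow_left i
        have h3 : (x ^ i) * k * (x ^ i)⁻¹ * (k : H)⁻¹ = 1 := by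
          rw [h2.eq, mul_inv_cancel_right, mul_inv_cancel]
        rw [show ((fun i : ℤ => x ^ i) i) * (k : H) * ((fun i : ℤ => x ^ i) i)⁻¹ * (k : H)⁻¹ = 1 from h3]
        exact one_mem _
      · intro v hv hvx
        have h2 : v ∈ centralizer ({x} : Set H) := mem_centralizer_singleton_iff.2 (hvx x (mem_zpowers x)).symm
        have h3 : (⟨v, h2⟩ : ↥(centralizer ({x} : Set H))) ∈ F := hEF (mem_subgroupOf.2 hv)
        exact (congrArg Subtype.val ((mem_centralizer_iff.1 hk) _ h3)).symm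
    have h2 : (k : H) ∈ E := hself k hkC fun e he => ((mem_centralizer_iff.1 h1) e he).symm
    obtain ⟨j, hj⟩ := hE ⟨k, h2⟩
    have h3 : (k : H) ^ p ^ j = 1 := congrArg Subtype.val hj
    have h4 := orderOf_dvd_of_pow_eq_one h3
    rw [orderOf_coe] at h4
    have h5 : orderOf k ∣ 1 := by
      rw [← Nat.Coprime.pow_right j hkp]
      exact Nat.dvd_gcd dvd_rfl h4
    exact orderOf_eq_one_iff.1 (Nat.dvd_one.1 h5)
  -- so the centralizer is a `p`-group
  have hKn : (centralizer (F : Set ↥(centralizer ({x} : Set H)))).Normal := inferInstance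
  refine le_pCore' hKn ?_
  rw [IsPGroup.iff_card]
  refine ⟨_, Nat.eq_prime_pow_of_unique_prime_dvd (p := p) Nat.card_pos.ne' fun {q} hq hqd => ?_⟩
  by_contra hne
  have : Fact q.Prime := ⟨hq⟩
  obtain ⟨k, hk⟩ := exists_prime_orderOf_dvd_card' q hqd
  have h1 : orderOf (k : ↥(centralizer ({x} : Set H))) = q := by rw [orderOf_coe, hk]
  have h2 := key k k.2 (by
    rw [h1]
    exact (Nat.coprime_primes hq Fact.out).2 hne)
  rw [h2, orderOf_one] at h1
  exact hq.one_lt.ne h1

end Cfsg.Agent.H807.EB
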