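import Mathlib

/-!
# S4522, row `M`: elements of order 7 of `A₉`
-/

set_option autoImplicit false

namespace Cfsg.Agent.H807.EB.Nine

open Equiv Equiv.Perm

theorem sum_le (σ : Perm (Fin 9)) : σ.cycleType.sum ≤ 9 := by
  have h := sum_cycleType_le σ
  rwa [Fintype.card_fin] at h

/-- an element whose order is divisible by 7 contains a 7-cycle -/
theorem seven_mem {σ : Perm (Fin 9)} (h : 7 ∣ orderOf σ) : 7 ∈ σ.cycleType := by
  rw [← lcm_cycleType] at h
  have hp : Nat.Prime 7 := by norm_num
  obtain ⟨m, hm, h7⟩ : ∃ m ∈ σ.cycleType, 7 ∣ m := by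
    by_contra hcon
    push Not at hcon
    have key : ∀ s : Multiset ℕ, (∀ m ∈ s, ¬ 7 ∣ m) → ¬ 7 ∣ s.lcm := by
      intro s
      induction s using Multiset.induction with
      | empty => intro _ h1; rw [Multiset.lcm_zero] at h1; exact absurd h1 (by norm_num)
      | cons a s ih =>
        intro hs h1
        rw [Multiset.lcm_cons] at h1
        rcases (hp.dvd_lcm).1 h1 with h2 | h2
        · exact hs a (Multiset.mem_cons_self a s) h2
        · exact ih (fun m hm => hs m (Multiset.mem_cons_of_mem hm)) h2
    exact key _ hcon h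
  have h9 : m ≤ 9 := (Multiset.le_sum_of_mem hm).trans (sum_le σ)
  have h2 := two_le_of_mem_cycleType hm
  obtain ⟨k, rfl⟩ := h7
  have : k = 1 := by omega
  subst this
  exact hm

/-- the cycle type is `(7)` or `(7, 2)` -/
theorem cycleType_cases {σ : Perm (Fin 9)} (h : 7 ∣ orderOf σ) : σ.cycleType = {7} ∨ σ.cycleType = {7, 2} := by
  obtain ⟨s, hs⟩ := Multiset.exists_cons_of_mem (seven_mem h)
  have h1 := sum_le σ
  rw [hs, Multiset.sum_cons] at h1
  have h2 : ∀ m ∈ s, 2 ≤ m := fun m hm => two_le_of_mem_cycleType (by rw [hs]; exact Multiset.mem_cons_of_mem hm)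
  rcases Multiset.empty_or_exists_mem s with h3 | ⟨m, hm⟩
  · left
    rw [hs, h3]
    rfl
  · right
    obtain ⟨s', hs'⟩ := Multiset.exists_cons_of_mem hm
    rw [hs', Multiset.sum_cons] at h1
    have h4 := h2 m hm
    have h5 : m = 2 := by omega
    rcases Multiset.empty_or_exists_mem s' with h6 | ⟨m', hm'⟩
    · rw [hs, hs', h6, h5]
      rfl
    · have h7 := Multiset.le_sum_of_mem hm'
      have h8 := h2 m' (by rw [hs']; exact Multiset.mem_cons_of_mem hm')
      omega

theorem cycleType_alt {σ : Perm (Fin 9)} (h : 7 ∣ orderOf σ) (hs : sign σ = 1) : σ.cycleType = {7} := by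
  rcases cycleType_cases h with h1 | h1
  · exact h1
  · rw [sign_of_cycleType, h1] at hs
    exact absurd hs (by decide)

/-- the elements of order 7 of `A₉` are conjugate -/
theorem conj_seven {a b : alternatingGroup (Fin 9)} (ha : orderOf a = 7) (hb : orderOf b = 7) : IsConj a b := by
  have key : ∀ a : alternatingGroup (Fin 9), orderOf a = 7 → (a : Perm (Fin 9)).cycleType = {7} := fun a ha =>
    cycleType_alt (by rw [Subgroup.orderOf_coe, ha]) a.2
  refine alternatingGroup.isConj_of (isConj_iff_cycleType_eq.2 ((key a ha).trans (key b hb).symm)) ?_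
  rw [← sum_cycleType, key a ha, Fintype.card_fin]
  decide

/-- an element of order 7 of `A₉` commutes with no involution -/
theorem not_comm {a g : alternatingGroup (Fin 9)} (ha : orderOf a = 7) (hg : orderOf g = 2) (h : a * g = g * a) :
    False := by
  have h1 : orderOf (a * g) = 14 := by
    rw [(show Commute a g from h).orderOf_mul_eq_mul_orderOf_of_coprime (by rw [ha, hg]; norm_num), ha, hg]
  have h2 := cycleType_alt (σ := ((a * g : alternatingGroup (Fin 9)) : Perm (Fin 9)))
    (by rw [Subgroup.orderOf_coe, h1]; norm_num) (a * g).2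
  have h3 := lcm_cycleType ((a * g : alternatingGroup (Fin 9)) : Perm (Fin 9))
  rw [h2, Subgroup.orderOf_coe, h1] at h3
  revert h3
  decide

end Cfsg.Agent.H807.EB.Nine
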